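import Cfsg.Agent.Fischer.Cent
import Cfsg.Agent.S1265

/-! Groups between a centreless group and its automorphism group (helper24): `conjE`, `equiv_aut`,
`equiv_of_out` (extensions with conjugate images in `Out` are isomorphic), `s4_six`. -/

set_option autoImplicit false

namespace Cfsg.Agent.Fischer

open Subgroup Equiv

variable {G G' P : Type*} [Group G] [Group G'] [Group P]

/-- conjugation on a normal subgroup, transported along an isomorphism. -/
def conjE (L : Subgroup G) [L.Normal] (e : L ≃* P) : G →* MulAut P :=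
  (MulAut.congr e).toMonoidHom.comp MulAut.conjNormal

theorem conjE_apply (L : Subgroup G) [hn : L.Normal] (e : L ≃* P) (g : G) (x : L) :
    conjE L e g (e x) = e ⟨g * x * g⁻¹, hn.conj_mem _ x.2 g⟩ := by
  simp only [conjE, MonoidHom.comp_apply, MulEquiv.coe_toMonoidHom, MulAut.congr_apply, MulEquiv.trans_apply,
    MulEquiv.symm_apply_apply]
  rfl

theorem conjE_coe (L : Subgroup G) [L.Normal] (e : L ≃* P) (x : L) : conjE L e x = MulAut.conj (e x) := by
  ext y
  obtain ⟨y, rfl⟩ := e.surjective y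
  rw [conjE_apply, MulAut.conj_apply, ← map_inv, ← map_mul, ← map_mul]; rfl

theorem conjE_eq_one {L : Subgroup G} [L.Normal] (e : L ≃* P) {g : G} :
    conjE L e g = 1 ↔ g ∈ centralizer (L : Set G) := by
  refine ⟨fun h x hx => ?_, fun h => ?_⟩
  · have := conjE_apply L e g ⟨x, hx⟩
    rw [h] at this
    exact (mul_inv_eq_iff_eq_mul.1 (congrArg Subtype.val (e.injective this)).symm).symm
  · ext y
    obtain ⟨y, rfl⟩ := e.surjective y
    rw [conjE_apply]
    exact congrArg e (Subtype.ext (mul_inv_eq_iff_eq_mul.2 (h y y.2).symm))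

theorem conjE_inj {L : Subgroup G} [L.Normal] (e : L ≃* P) (z : center P = ⊥) (h : centralizer (L : Set G) ≤ L) :
    Function.Injective (conjE L e) := (injective_iff_map_eq_one _).2 fun g hg => by
  have h1 := (conjE_eq_one e).1 hg
  have : e ⟨g, h h1⟩ ∈ center P := mem_center_iff.2 fun y => by
    obtain ⟨y, rfl⟩ := e.surjective y
    rw [← map_mul, ← map_mul]; exact congrArg e (Subtype.ext (h1 y y.2))
  rw [z, mem_bot, map_eq_one_iff _ e.injective] at this
  exact congrArg Subtype.val this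

theorem equiv_aut [Finite P] {L : Subgroup G} [L.Normal] (e : L ≃* P) (z : center P = ⊥)
    (h : centralizer (L : Set G) ≤ L) (c : Nat.card (MulAut P) ≤ Nat.card G) : Nonempty (G ≃* MulAut P) := by
  have : Finite (MulAut P) := Finite.of_injective (fun φ : MulAut P => (φ : P → P)) DFunLike.coe_injective
  exact ⟨MulEquiv.ofBijective _ ((conjE_inj e z h).bijective_of_nat_card_le c)⟩

theorem comap_conjE {L : Subgroup G} [L.Normal] (e : L ≃* P) (i : Function.Injective (conjE L e)) :
    ((QuotientGroup.mk' (Inn P)).comp (conjE L e)).ker = L := by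
  ext g
  rw [MonoidHom.mem_ker, MonoidHom.comp_apply, QuotientGroup.mk'_apply, QuotientGroup.eq_one_iff]
  refine ⟨fun ⟨y, hy⟩ => ?_, fun hg => ⟨e ⟨g, hg⟩, (conjE_coe L e ⟨g, hg⟩).symm⟩⟩
  obtain ⟨y, rfl⟩ := e.surjective y
  rw [← conjE_coe] at hy
  exact i hy ▸ y.2

theorem range_conjE (L : Subgroup G) [L.Normal] (e : L ≃* P) : (conjE L e).range =
    (((QuotientGroup.mk' (Inn P)).comp (conjE L e)).range).comap (QuotientGroup.mk' (Inn P)) := by
  rw [MonoidHom.range_comp, comap_map_eq, QuotientGroup.ker_mk', eq_comm, sup_eq_left]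
  rintro _ ⟨y, rfl⟩
  obtain ⟨y, rfl⟩ := e.surjective y
  exact ⟨y, conjE_coe L e y⟩

theorem equiv_of_out {L : Subgroup G} [L.Normal] (e : L ≃* P) (i : Function.Injective (conjE L e))
    {L' : Subgroup G'} [L'.Normal] (e' : L' ≃* P) (i' : Function.Injective (conjE L' e')) (u : Out P)
    (h : ∀ x, x ∈ ((QuotientGroup.mk' (Inn P)).comp (conjE L e)).range ↔
      u * x * u⁻¹ ∈ ((QuotientGroup.mk' (Inn P)).comp (conjE L' e')).range) : Nonempty (G ≃* G') := by
  obtain ⟨u, rfl⟩ := QuotientGroup.mk'_surjective _ u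
  have : ((conjE L e).range).map (MulAut.conj u).toMonoidHom = (conjE L' e').range := by
    ext x
    rw [mem_map_equiv, range_conjE, range_conjE L', mem_comap, mem_comap, h, ← map_inv, ← map_mul, ← map_mul]
    simp [mul_assoc]
  exact ⟨((MonoidHom.ofInjective i).trans (((MulAut.conj u).subgroupMap _).trans (MulEquiv.subgroupCongr this))).trans
    (MonoidHom.ofInjective i').symm⟩

theorem s4_aux : ∀ σ : Perm (Fin 4), σ ^ 3 = 1 → σ ≠ 1 → ∃ p, ∀ h : Perm (Fin 4),
    (h * σ * h⁻¹ = σ ∨ h * σ * h⁻¹ = σ ^ 2) → h p = p := by decide +kernel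

theorem s4_six (H : Subgroup (Perm (Fin 4))) (h : Nat.card H = 6) :
    ∃ p : Fin 4, H = MulAction.stabilizer _ p := by
  have : Fact (Nat.Prime 3) := ⟨by decide⟩
  obtain ⟨σ, hσ⟩ := exists_prime_orderOf_dvd_card' (G := H) 3 (by rw [h]; decide)
  have h1 : (zpowers σ).index = 2 := by
    have := (zpowers σ).card_mul_index
    rw [Nat.card_zpowers, hσ, h] at this; omega
  have h2 := normal_of_index_eq_two h1
  have h3 : σ ^ 3 = 1 := hσ ▸ pow_orderOf_eq_one σ
  have h4 : σ ≠ 1 := by rintro rfl; simp at hσ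
  obtain ⟨p, hp⟩ := s4_aux σ (congrArg Subtype.val h3) fun e => h4 (Subtype.ext e)
  refine ⟨p, eq_of_le_of_card_ge (fun g hg => hp g ?_) ?_⟩
  · have := h2.conj_mem σ (mem_zpowers σ) ⟨g, hg⟩
    rw [mem_zpowers_iff_mem_range_orderOf, hσ] at this
    simp only [Finset.mem_image, Finset.mem_range] at this
    obtain ⟨k, hk, e⟩ := this
    interval_cases k
    · exact absurd (by simpa using e.symm) h4
    · exact Or.inl (by simpa using congrArg Subtype.val e.symm)
    · exact Or.inr (by simpa using congrArg Subtype.val e.symm)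
  · have h5 := MulAction.index_stabilizer_of_transitive (Perm (Fin 4)) p
    have h6 := (MulAction.stabilizer (Perm (Fin 4)) p).card_mul_index
    rw [h5, Nat.card_perm, Nat.card_fin] at h6
    rw [h]; change _ * 4 = 24 at h6; omega

theorem s4_conj (H H' : Subgroup (Perm (Fin 4))) (h : Nat.card H = 6) (h' : Nat.card H' = 6) :
    ∃ u, ∀ x, x ∈ H ↔ u * x * u⁻¹ ∈ H' := by
  obtain ⟨p, rfl⟩ := s4_six H h
  obtain ⟨q, rfl⟩ := s4_six H' h'
  refine ⟨swap p q, fun x => ?_⟩
  simp only [MulAction.mem_stabilizer_iff, Perm.smul_def, Perm.mul_apply, swap_inv, swap_apply_right]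
  rw [swap_apply_eq_iff, swap_apply_right]

end Cfsg.Agent.Fischer
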